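import Cfsg.Agent.H564.EPF.Par
import Cfsg.Agent.H564.EPF.Inst
import Cfsg.Agent.H470.EPO.OwnBig

/-!
# S3499 (and S5745), own characteristic, socle `²F₄(q)` (helper564)

* `own_S_psys`, `own_T_psys` : `own_R` (helper737) with the `G`-side of helper470 for any parabolic system with `Rk`;
* `own_S_twf`, `own_T_twf` : socle `²F₄(q)`, `q ≥ 8`;
* `own_big_twf` : in the situation `Big`.
-/

set_option autoImplicit false
set_option linter.unusedSectionVars false

namespace Cfsg.Agent.H564.EPF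

open Cfsg.Agent.H284 (EPT)
open Cfsg.Agent.KFacts.RgdFilt Cfsg.Agent.H284.EPT Cfsg.Agent.H419.EP Cfsg.Agent.H737.EPO Cfsg.Agent.H209.EPX
open Cfsg.Agent.H470.EPO

/-- **own characteristic, `EPS`-form**, any parabolic system -/
theorem own_S_psys {I : Type*} [Nontrivial I] {G : Type*} [Group G] [Finite G] {H N : Subgroup G} {T : Type} [Group T]
    [Finite T] {k : ℕ} {e : N ≃* (Fin k → T)} (h : EPS H N e) {p : ℕ} [Fact p.Prime]
    {Y : Type*} [Group Y] [Finite Y] [IsSimpleGroup Y] (hY : HasFilt p Y) (hYn : ∃ a b : Y, a * b ≠ b * a)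
    {j : Y →* G} (hj : Function.Injective j) (hn : j.range.Normal) (hNj : N ≤ j.range) {S : PSys T p I} (hS : Rk S) :
    p = 2 ∧ ∃ i, (S.V {i}).relIndex (S.V ∅) = 2 := by
  have := h.simple
  obtain ⟨P, -, hP⟩ := exists_sylIn (p := p) (H := H) (K := ⊥) bot_le IsPGroup.of_bot
  obtain ⟨e', hPN⟩ := exists_std S e h.nrm h.le hP
  exact own_R e' h.nab hS h.ep h.toMinN h.pos hP hPN (fun J hJ => dq_of h hY hYn hj hn hNj _ e' J hJ)

/-- **own characteristic, `T`-form**, any parabolic system -/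
theorem own_T_psys {I : Type*} [Nontrivial I] {Q : Type*} [Group Q] [Finite Q] [IsSimpleGroup Q] {p : ℕ} [Fact p.Prime]
    (hQ : HasFilt p Q) {A₀ : Subgroup Q} {Γ : Subgroup (MulAut Q)} (h : EPT A₀ Γ) {L : Type} [Group L]
    [Finite L] [IsSimpleGroup L] (hL : ∃ a b : L, a * b ≠ b * a) (hs : HasSoc A₀ L) {S : PSys L p I} (hS : Rk S) :
    p = 2 ∧ ∃ i, (S.V {i}).relIndex (S.V ∅) = 2 := by
  obtain ⟨N, hN, ⟨e⟩⟩ := exists_socN hL hs
  have hfin : Finite (H284.EPT.GG Γ) := finite_GG h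
  have hE := eps_of_ept h hN (L := L) inferInstance hL e
  have hn : (jj Γ).range.Normal := by
    refine ⟨?_⟩
    rintro _ ⟨q, rfl⟩ g
    exact ⟨_, (jj_conj Γ g q).symm⟩
  have hNj : N.map (jj Γ) ≤ (jj Γ).range := by
    rintro _ ⟨x, _, rfl⟩
    exact ⟨x, rfl⟩
  obtain ⟨a, ha, b, hb, hab⟩ := hN.nab
  exact own_S_psys hE hQ ⟨a, b, hab⟩ (jj_inj h) hn hNj hS

section model

open Cfsg.Agent.KFacts.TwF4 Cfsg.Agent.KFacts.TwF4.SylU Cfsg.Agent.ChevalleyStructure.TwF4.TwistedFix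

variable {K : Type} [Field K] [Fintype K]

/-- **the parabolic system of `²F₄(q)`** -/
theorem exists_psys {m : ℕ} (hm : 1 ≤ m) (hK : Fintype.card K = 2 ^ (2 * m + 1)) :
    ∃ S : PSys ↥(Lie.twistedF4 K (2 ^ m)) 2 (Fin 2), Rk S ∧ ∀ j, (S.V {j}).relIndex (S.V ∅) ≠ 2 := by
  have : CharP K 2 := Cfsg.Agent.ChevalleyStructure.TwF4.Twisted.charP_two hK
  obtain ⟨φ, hφ⟩ := exists_rln hK
  have hfin : Finite (GL Lie.chevF4.Idx K) := inferInstance
  have : Finite ↥(Lie.twistedF4 K (2 ^ m)) := inferInstance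
  have h8 : 8 ≤ Fintype.card K := by
    rw [hK]
    calc 8 = 2 ^ 3 := by norm_num
      _ ≤ 2 ^ (2 * m + 1) := Nat.pow_le_pow_right (by norm_num) (by omega)
  obtain ⟨c, hc0, hc1⟩ : ∃ c : K, c ≠ 0 ∧ c ≠ 1 := by
    classical
    by_contra hcon
    push Not at hcon
    have h3 : (Finset.univ : Finset K) ⊆ {0, 1} := by
      intro x _
      by_cases hx : x = 0
      · simp [hx]
      · simp [hcon x hx]
    have h4 := (Finset.card_le_card h3).trans (Finset.card_le_two)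
    rw [Finset.card_univ] at h4
    omega
  have hF : ∃ c : Kˣ, c ≠ 1 := ⟨Units.mk0 c hc0, fun h => hc1 (by simpa using congrArg Units.val h)⟩
  let S := Cfsg.Agent.KFacts.TwF4.Inst.full hK hφ
  obtain ⟨P, hP⟩ := exists_sylow S hF rfl
  let D : OD ↥(Lie.twistedF4 K (2 ^ m)) := ofFull S (opp hK hφ)
  have hU : D.U = (P : Subgroup ↥(Lie.twistedF4 K (2 ^ m))) := hP.symm
  have h2 : IsPGroup 2 D.U := by rw [hU]; exact P.isPGroup'
  have hs : ∀ R : Subgroup ↥(Lie.twistedF4 K (2 ^ m)), D.U ≤ R → IsPGroup 2 R → R = D.U := by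
    intro R hR hR2
    rw [hU] at hR ⊢
    exact P.is_maximal' hR2 hR
  refine ⟨D.psys h2 hs, OD.rk h2 hs, fun j => ?_⟩
  fin_cases j
  · have k1 : ∀ t, S.o 0 t ∈ D.X (sr 0) := fun t => by
      have h3 : sr 0 = od 0 := by decide
      rw [h3]
      exact (S.mem_odd 0 _).2 ⟨t, rfl⟩
    have k0 : ∀ {t}, t ≠ 0 → S.o 0 t ≠ 1 := fun {t} ht h => ht (S.o_eq_one h)
    exact OD.relIndex_ne_two h2 hs 0 (k1 1) (k1 c) (k0 one_ne_zero) (k0 hc0) (fun h => hc1 (S.injO 0 h).symm)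
  · have k1 : ∀ t, S.e 4 0 t ∈ D.X (sr 1) := fun t => by
      have h3 : sr 1 = ev 4 := by decide
      rw [h3]
      exact (S.mem_even 4 _).2 ⟨0, t, rfl⟩
    have k0 : ∀ {t}, t ≠ 0 → S.e 4 0 t ≠ 1 := fun {t} ht h => ht (S.e_eq_one h).2
    exact OD.relIndex_ne_two h2 hs 1 (k1 1) (k1 c) (k0 one_ne_zero) (k0 hc0) (fun h => hc1 (S.injE 4 _ _ _ _ h).2.symm)

/-- **own characteristic, `EPS`-form** (S5745): `N ≅ ²F₄(q) ^ k`, `q ≥ 8` -/
theorem own_S_twf {m : ℕ} (hm : 1 ≤ m) (hK : Fintype.card K = 2 ^ (2 * m + 1)) {G : Type*} [Group G] [Finite G]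
    {H N : Subgroup G} {k : ℕ} [Finite ↥(Lie.twistedF4 K (2 ^ m))] {e : N ≃* (Fin k → ↥(Lie.twistedF4 K (2 ^ m)))}
    (h : EPS H N e)
    {Y : Type*} [Group Y] [Finite Y] [IsSimpleGroup Y] (hY : HasFilt 2 Y) (hYn : ∃ a b : Y, a * b ≠ b * a)
    {j : Y →* G} (hj : Function.Injective j) (hn : j.range.Normal) (hNj : N ≤ j.range) : False := by
  have : Fact (Nat.Prime 2) := ⟨Nat.prime_two⟩
  obtain ⟨S, hS, h2⟩ := exists_psys (K := K) hm hK
  obtain ⟨-, i, hi⟩ := own_S_psys h hY hYn hj hn hNj hS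
  exact h2 i hi

/-- **own characteristic, `EPS`-form** (S5745), `T` of type `²F₄(q)`, `q ≥ 8` -/
theorem own_S_iso {T : Type} [Group T] (hT : Lie.Iso2F4 T) {G : Type*} [Group G] [Finite G]
    {H N : Subgroup G} {k : ℕ} {e : N ≃* (Fin k → T)} (h : EPS H N e)
    {Y : Type*} [Group Y] [Finite Y] [IsSimpleGroup Y] (hY : HasFilt 2 Y) (hYn : ∃ a b : Y, a * b ≠ b * a)
    {j : Y →* G} (hj : Function.Injective j) (hn : j.range.Normal) (hNj : N ≤ j.range) : False := by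
  obtain ⟨K, _, _, m, hm, hK, ⟨f⟩⟩ := hT
  have hfin : Finite (GL Lie.chevF4.Idx K) := inferInstance
  have : Finite ↥(Lie.twistedF4 K (2 ^ m)) := inferInstance
  have := h.simple
  have h' : EPS H N (e.trans (MulEquiv.piCongrRight fun _ => f)) :=
    { toMinN := h.toMinN
      ep := h.ep
      pos := h.pos
      simple := f.symm.isSimpleGroup
      nab := by
        obtain ⟨a, b, hab⟩ := h.nab
        refine ⟨f a, f b, fun h1 => hab ?_⟩
        rw [← map_mul, ← map_mul] at h1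
        exact f.injective h1
      cent := h.cent
      least := h.least }
  exact own_S_twf hm hK h' hY hYn hj hn hNj

end model

section big

open Cfsg.Agent.H419.EP
open scoped MatrixGroups

variable {Q : Type} [Group Q] [Finite Q] {A : Subgroup Q} {Γ : Subgroup (MulAut Q)} {ι : Type} [Fintype ι]
  [DecidableEq ι] {F : Type} [Field F] [Fintype F] {S P : Subgroup (GL ι F)}

/-- **Own characteristic, socle `²F₄(q)`, `q ≥ 8`**, in the situation `Big` -/
theorem own_big_twf (b : Big A Γ S P) (hc : ringChar F = 2) (h : Lie.Iso2F4 (socle P)) : False := by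
  obtain ⟨K, _, _, l, hl, hK, ⟨e⟩⟩ := h
  have : Fact (Nat.Prime 2) := ⟨Nat.prime_two⟩
  have := b.simple
  have := b.core.simple
  have : IsSimpleGroup ↥(Lie.twistedF4 K (2 ^ l)) := e.symm.isSimpleGroup
  have : Finite (socle P) := inferInstance
  have : Finite ↥(Lie.twistedF4 K (2 ^ l)) := Finite.of_equiv _ e.toEquiv
  obtain ⟨x, y, hxy⟩ := big_nab b
  obtain ⟨S', hS, h2⟩ := exists_psys (K := K) hl hK
  have hf := b.filt
  rw [hc] at hf
  obtain ⟨-, i, hi⟩ := own_T_psys hf b.ept (L := ↥(Lie.twistedF4 K (2 ^ l))) ⟨e x, e y, fun h => hxy (by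
    rw [← map_mul, ← map_mul] at h
    exact e.injective h)⟩ (b.hasSoc' e) hS
  exact h2 i hi

end big

end Cfsg.Agent.H564.EPF
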