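import Mathlib

/-!
# The dihedral group of order 16 acting on the sixteen roots of an octagon (helper564, S3499)

Roots `k : ZMod 16`, positive roots `1, …, 8`, simple roots `1` and `8`; `W = ZMod 8 × Bool`, `(c, false) : k ↦ 2c + k`,
`(c, true) : k ↦ 2c - k`.  `V`-roots: `2, …, 8` (node `0`), `1, …, 7` (node `1`).
-/

set_option autoImplicit false

namespace Cfsg.Agent.H564.EPF

/-- roots -/
abbrev Rt := ZMod (2 * 8)

/-- the Weyl group -/
abbrev W := ZMod 8 × Bool

/-- `2 c` -/
def dbl (c : ZMod 8) : Rt := ((2 * c.val : ℕ) : Rt)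

/-- the action -/
def ac (w : W) (k : Rt) : Rt := bif w.2 then dbl w.1 - k else dbl w.1 + k

/-- product -/
def mw (w v : W) : W := (w.1 + (bif w.2 then -v.1 else v.1), xor w.2 v.2)

/-- inverse -/
def iw (w : W) : W := (bif w.2 then w.1 else -w.1, w.2)

/-- positive -/
def ps (k : Rt) : Bool := decide (1 ≤ k.val) && decide (k.val ≤ 8)

/-- roots of `V_j` -/
def nr (j : Fin 2) (k : Rt) : Bool :=
  if j = 0 then decide (2 ≤ k.val) && decide (k.val ≤ 8) else decide (1 ≤ k.val) && decide (k.val ≤ 7)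

/-- simple roots -/
def sr (j : Fin 2) : Rt := if j = 0 then 1 else 8

/-- simple reflections -/
def sp (j : Fin 2) : W := if j = 0 then (5, true) else (4, true)

/-- the reflection at `k` -/
def rf (k : Rt) : W := (((k.val + 4 : ℕ) : ZMod 8), true)

theorem ac_one : ∀ k, ac (0, false) k = k := by decide

theorem dbl_add : ∀ a b : ZMod 8, dbl (a + b) = dbl a + dbl b := by decide

theorem dbl_neg : ∀ a : ZMod 8, dbl (-a) = - dbl a := by decide

theorem ac_mw (w v : W) (k : Rt) : ac (mw w v) k = ac w (ac v k) := by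
  obtain ⟨a, x⟩ := w
  obtain ⟨b, y⟩ := v
  cases x <;> cases y <;> simp only [ac, mw, cond_true, cond_false, Bool.xor_false, Bool.xor_true, Bool.not_true,
    Bool.not_false, dbl_add, dbl_neg] <;> ring

theorem ac_iw (w : W) (k : Rt) : ac w (ac (iw w) k) = k := by
  obtain ⟨a, x⟩ := w
  cases x <;> simp only [ac, iw, cond_true, cond_false, dbl_neg] <;> ring

theorem iw_ac (w : W) (k : Rt) : ac (iw w) (ac w k) = k := by
  obtain ⟨a, x⟩ := w
  cases x <;> simp only [ac, iw, cond_true, cond_false, dbl_neg] <;> ring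

/-- not in `W_j`: a root of `V_j` is moved out of it -/
theorem stab_iff : ∀ (j : Fin 2) (w : W), (∀ k, nr j k = true → nr j (ac w k) = true) → w = (0, false) ∨ w = sp j := by
  decide

theorem stab_U : ∀ w : W, (∀ k, ps k = true → ps (ac w k) = true) → w = (0, false) := by decide

theorem sp_nr : ∀ (j : Fin 2) (k : Rt), nr j k = true → nr j (ac (sp j) k) = true := by decide

theorem sp_sr : ∀ j : Fin 2, ac (sp j) (sr j) = sr j + 8 := by decide

theorem rf_self : ∀ k : Rt, ac (rf k) k = k + 8 := by decide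

theorem ac_opp : ∀ (w : W) (k : Rt), ac w (k + 8) = ac w k + 8 := by decide

theorem ps_opp : ∀ k : Rt, ps (k + 8) = !ps k := by decide

theorem nr_ps : ∀ (j : Fin 2) (k : Rt), nr j k = true → ps k = true := by decide

theorem ps_cases : ∀ (j : Fin 2) (k : Rt), ps k = true → k = sr j ∨ nr j k = true := by decide

theorem sr_ps : ∀ j : Fin 2, ps (sr j) = true := by decide

theorem sr_not_nr : ∀ j : Fin 2, nr j (sr j) = false := by decide

/-- no descent: `w = 1` -/
theorem eq_one_of : ∀ w : W, (∀ j : Fin 2, ps (ac (iw w) (sr j)) = true) → w = (0, false) := by decide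

/-- two descents: `w` maps all positive roots to negative roots -/
theorem opp_of : ∀ w : W, (∀ j : Fin 2, ps (ac (iw w) (sr j)) = false) → ∀ k, ps k = true → ps (ac w k) = false := by
  decide

/-- the cut at a descent: node `0` -/
theorem cut0 : ∀ w : W, ps (ac (iw w) 1) = false → ∃ a : Fin 8, (∀ k : Rt, 1 ≤ k.val → k.val ≤ a.val + 1 →
    ps (ac (iw w) k) = false) ∧ ∀ k : Rt, a.val + 2 ≤ k.val → k.val ≤ 8 → ps (ac (iw w) k) = true := by decide

/-- the cut at a descent: node `1` -/
theorem cut1 : ∀ w : W, ps (ac (iw w) 8) = false → ∃ a : Fin 8, (∀ k : Rt, 1 ≤ k.val → k.val ≤ a.val →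
    ps (ac (iw w) k) = true) ∧ ∀ k : Rt, a.val + 1 ≤ k.val → k.val ≤ 8 → ps (ac (iw w) k) = false := by decide

/-- roots of `P_j` -/
theorem rf_sp : ∀ (j : Fin 2) (k : Rt), rf k = sp j → ps k = false → k = sr j + 8 := by decide

theorem rf_ne_one : ∀ k : Rt, rf k ≠ (0, false) := by decide

theorem iw_sp : ∀ j : Fin 2, iw (sp j) = sp j := by decide

theorem iw_mw : ∀ w v : W, iw (mw w v) = mw (iw v) (iw w) := by decide

theorem iw_iw : ∀ w : W, iw (iw w) = w := by decide

theorem mw_sp : ∀ (j : Fin 2) (w : W), mw (sp j) (mw (sp j) w) = w := by decide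

theorem mw_one : ∀ w : W, mw w (0, false) = w := by decide

theorem one_mw : ∀ w : W, mw (0, false) w = w := by decide

/-- left multiplication by a simple reflection exchanges ascents and descents -/
theorem flip : ∀ (j : Fin 2) (w : W), ps (ac (iw (mw (sp j) w)) (sr j)) = !ps (ac (iw w) (sr j)) := by decide

theorem d1 : ∀ w : W, (∀ k, ps k = true → ps (ac (iw w) k) = true) → w = (0, false) := by decide

theorem d2 : ∀ (l : Fin 2) (w : W), (∀ k, ps k = true → ps (ac (iw w) k) = true ∨ ac (iw w) k = sr l + 8) →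
    w = (0, false) ∨ w = sp l := by decide

theorem d3 : ∀ (j : Fin 2) (w : W), (∀ k, nr j k = true → ps (ac (iw w) k) = true) → w = (0, false) ∨ w = sp j := by
  decide

theorem d4 : ∀ (j l : Fin 2) (w : W), (∀ k, nr j k = true → ps (ac (iw w) k) = true ∨ ac (iw w) k = sr l + 8) →
    w = (0, false) ∨ w = sp j ∨ w = sp l ∨ w = mw (sp j) (sp l) := by decide

theorem iw_mw_cancel : ∀ w v : W, mw (iw w) (mw w v) = v := by decide

theorem rf_sr : ∀ j : Fin 2, rf (sr j) = sp j := by decide

/-- a root of `V_j` whose reflection moves `V_j` to a neighbouring half -/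
def k0 (j : Fin 2) : Rt := if j = 0 then 2 else 1

theorem k0_nr : ∀ j : Fin 2, nr j (k0 j) = true := by decide

theorem e1 : ∀ (j : Fin 2) (w : W), w ≠ (0, false) → w ≠ sp j →
    (∃ v : W, ∀ k, ps k = true → nr j (ac v k) = true ∨ nr j (ac (iw w) (ac v k)) = true) ∨
      nr j (ac (iw w) (k0 j + 8)) = true := by decide

theorem e2 : ∀ j : Fin 2, ∃ v : W, ∀ k, ps k = true → nr j (ac v k) = true ∨
    nr j (ac (iw (rf (k0 j))) (ac v k)) = true := by decide

/-- a simple descent of `w ≠ 1`, the other one for `s_j w` -/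
theorem e3 : ∀ w : W, w ≠ (0, false) → ∃ j : Fin 2, ps (ac (iw w) (sr j)) = false := by decide

theorem e4 : ∀ (j : Fin 2) (w : W), ps (ac (iw w) (sr j)) = false → (∀ i : Fin 2, i ≠ j →
    ps (ac (iw (mw (sp j) w)) (sr i)) = true) → w = sp j := by decide

theorem nr_other : ∀ i j : Fin 2, i ≠ j → nr i (sr j) = true := by decide

theorem fin2 : ∀ i j l : Fin 2, i ≠ j → l ≠ j → i = l := by decide

end Cfsg.Agent.H564.EPF
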