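import Cfsg.Agent.H564.EPF.OwnTwF
import Cfsg.Agent.H424.EPX.OwnG

/-!
# S5745, `G = ²F₄(q)`, own characteristic (helper564; the `G`-side: helper424)

* `gSide_of_hasCan` : `GSideA p G`;
* `ownR1_can`, `ownR1_tf4` : no socle of rank one;
* `own_tf4` : `Own 2 G` from `OwnQ2 G`, `R1All` and `A₅`.
-/

set_option autoImplicit false
set_option linter.unusedSectionVars false

namespace Cfsg.Agent.H564.EPF

open Cfsg.Agent.H284 Cfsg.Agent.H737.EPO Cfsg.Agent.H209.EPX Cfsg.Agent.KFacts.RgdFilt Cfsg.Agent.H542.EPX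
open Cfsg.Agent.H470.EPO Cfsg.Agent.H424.EPX

theorem gSide_of_hasCan {G : Type} [Group G] [Finite G] {p : ℕ} [Fact p.Prime] (hG : HasCan p G) : GSideA p G :=
  fun _ _ _ _ _ _ _ h _ S e' J hJ => hG.dq h S e' J hJ

/-- **`OwnR1 p G`** for `HasCan p G` -/
theorem ownR1_can (hR : R1All) {G : Type} [Group G] [Finite G] [IsSimpleGroup G] {p : ℕ} [Fact p.Prime]
    (hG : HasCan p G)
    (hsm : ∀ (H N : Subgroup G) (T : Type) [Group T] (e : N ≃* (Fin 1 → T)), EPS H N e → SmallR1 p T → False) :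
    OwnR1 p G := ownR1_dq hR (gSide_of_hasCan hG) hsm

/-- in characteristic two: only `A₅` -/
theorem small_two {T : Type} [Group T] (h : SmallR1 2 T) : ∃ (F : Type) (_ : Field F) (_ : Fintype F),
    Fintype.card F = 4 ∧ Nonempty (T ≃* Matrix.ProjectiveSpecialLinearGroup (Fin 2) F) := by
  have key : ∀ (F : Type) [Field F] [Fintype F] [CharP F 2], 2 ∣ Fintype.card F := by
    intro F _ _ _
    obtain ⟨⟨n, hn⟩, -, hc⟩ := FiniteField.card F 2
    rw [hc]
    exact dvd_pow_self 2 hn.ne'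
  rcases h with ⟨F, i1, i2, i3, h4, he⟩ | ⟨F, i1, i2, i3, q, hF, hq, -⟩
  · refine ⟨F, i1, i2, ?_, he⟩
    have := key F
    rcases h4 with h4 | h4 | h4
    · exact h4
    · rw [h4] at this; omega
    · rw [h4] at this; omega
  · exfalso
    have h2 := key F
    rw [hF] at h2
    rcases hq with rfl | rfl
    · omega
    · omega

/-- **`OwnR1 2 G`**, `G = ²F₄(q)` -/
theorem ownR1_tf4 (hR : R1All) {G : Type} [Group G] [Finite G] [IsSimpleGroup G] (hG : Cfsg.Lie.Iso2F4 G)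
    (hsm : ∀ (H N : Subgroup G) (T : Type) [Group T] (e : N ≃* (Fin 1 → T)), EPS H N e →
      ∀ (F : Type) [Field F] [Fintype F], Fintype.card F = 4 →
      (T ≃* Matrix.ProjectiveSpecialLinearGroup (Fin 2) F) → False) : OwnR1 2 G := by
  have : Fact (Nat.Prime 2) := ⟨Nat.prime_two⟩
  refine ownR1_can hR (hasCan_TF4 hG) fun H N T _ e h hT => ?_
  obtain ⟨F, _, _, h4, ⟨f⟩⟩ := small_two hT
  exact hsm H N T e h F h4 f

/-- **`Own 2 G`**, `G = ²F₄(q)` -/
theorem own_tf4 (hR : R1All) {G : Type} [Group G] [Finite G] [IsSimpleGroup G] (hG : Cfsg.Lie.Iso2F4 G)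
    (h2 : OwnQ2 G)
    (hsm : ∀ (H N : Subgroup G) (T : Type) [Group T] (e : N ≃* (Fin 1 → T)), EPS H N e →
      ∀ (F : Type) [Field F] [Fintype F], Fintype.card F = 4 →
      (T ≃* Matrix.ProjectiveSpecialLinearGroup (Fin 2) F) → False) : Own 2 G := by
  have : Fact (Nat.Prime 2) := ⟨Nat.prime_two⟩
  exact own_dq (gSide_of_hasCan (hasCan_TF4 hG)) (fun _ => h2) (ownR1_tf4 hR hG hsm)

end Cfsg.Agent.H564.EPF
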