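import Cfsg.Agent.H564.EPF.Own

/-!
# Own characteristic with the `G`-side as a hypothesis (helper564)

For overgroups without `HasFilt` (`G = ²F₄(q)`). `hdq` is the `G`-side `DQ` of helper470 / helper424.

* `own_S_dq` : any parabolic system of `T`;
* `own_S_filtC_dq`, `own_S_pan_dq` : `T` with a filtered root group datum of rank at least two;
* `own_S_iso_dq` : `T ≅ ²F₄(q)`;
* `exists_psys_bt` : the parabolic system of `²F₄(q)` with Borel–Tits.
-/

set_option autoImplicit false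
set_option linter.unusedSectionVars false

namespace Cfsg.Agent.H564.EPF

open CoxeterSystem Cfsg.Agent.ChevalleyStructure.CoxeterGeom Cfsg.Agent.Tits.Roots Cfsg.Agent.Tits.Core
  Cfsg.Agent.Tits.RootComb Cfsg.Agent.Tits.Exchange Cfsg.Agent.Nodes.Reps Cfsg.Agent.Nodes.BNOf
  Cfsg.Agent.Nodes.StabComb Cfsg.Agent.Nodes.Bruhat Cfsg.Agent.Nodes.OppDec Cfsg.Agent.Nodes.LeviDec
  Cfsg.Agent.Nodes.Coroot Cfsg.Agent.KFacts.RgdPar Cfsg.Agent.KFacts.RgdSL Cfsg.Agent.KFacts.RgdVJ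
  Cfsg.Agent.KFacts.RgdCharP Cfsg.Agent.H470.EPK Cfsg.Agent.H737.EPO Cfsg.Agent.H209.EPX
  Cfsg.Agent.KFacts.RgdFilt Cfsg.Agent.H284.EPT Cfsg.Agent.H50.Her Cfsg.Agent.H419.EP Cfsg.Agent.H284.Pan
  Cfsg.Agent.H470.EPO

/-- **own characteristic, `EPS`-form**, any parabolic system, the `G`-side as a hypothesis -/
theorem own_S_dq {I : Type*} [Nontrivial I] {G : Type*} [Group G] [Finite G] {H N : Subgroup G} {T : Type} [Group T]
    [Finite T] {k : ℕ} {e : N ≃* (Fin k → T)} (h : EPS H N e) {p : ℕ} [Fact p.Prime] {S : PSys T p I} (hS : Rk S)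
    (hdq : ∀ (e' : N ≃* (Fin k → T)) (J : Fin k → Set I), VV e' S J ≠ ⊥ → DQ H e' S J) :
    p = 2 ∧ ∃ i, (S.V {i}).relIndex (S.V ∅) = 2 := by
  have := h.simple
  obtain ⟨P, -, hP⟩ := exists_sylIn (p := p) (H := H) (K := ⊥) bot_le IsPGroup.of_bot
  obtain ⟨e', hPN⟩ := exists_std S e h.nrm h.le hP
  exact own_R e' h.nab hS h.ep h.toMinN h.pos hP hPN (hdq e')

/-- the `G`-side, for all parabolic systems of `T` -/
def GSide {G : Type*} [Group G] [Finite G] (H N : Subgroup G) (T : Type) [Group T] (k p : ℕ) : Prop :=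
  ∀ (I : Type) (S : PSys T p I) (e' : N ≃* (Fin k → T)) (J : Fin k → Set I), VV e' S J ≠ ⊥ → DQ H e' S J

section Fin

variable {p : ℕ} [Fact p.Prime] {l : ℕ} {M : CoxeterMatrix (Fin l)}

/-- rank at least two, with a root group datum -/
theorem own_SR_dq {W : Type*} [Group W] [Finite W] {cs : CoxeterSystem M W} {A : Fin l → Fin l → ℤ}
    {hC : IsCartan M A} [Nontrivial (Fin l)] {G : Type*} [Group G] [Finite G] {H N : Subgroup G} {T : Type} [Group T]
    [Finite T] {k : ℕ} {e : N ≃* (Fin k → T)} (h : EPS H N e) (hdq : GSide H N T k p)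
    {Tt : Subgroup T} {n : Fin l → T} {X : (Fin l → ℤ) → Subgroup T} (R : RGD cs hC p Tt n X) (hBT : BT cs hC p Tt X)
    (hG : GG cs hC Tt X = ⊤) (hX : RGD.Sup X {x | IsRoot cs hC x} = ⊤) (hconn : Conn M) :
    p = 2 ∧ ∃ i, Nat.card (X (Tits.Roots.sr i)) = 2 := by
  obtain ⟨h1, i, h2⟩ := own_S_dq h (rk_ofRGD R hBT hG hX hconn) (hdq _ _)
  exact ⟨h1, i, by rwa [relIndex_ofRGD] at h2⟩

/-- **`EPS`-form**, with a filtered root group datum of the socle. -/
theorem own_S_filtC_dq (hl : 2 ≤ l) {G : Type*} [Group G] [Finite G] {H N : Subgroup G} {T : Type} [Group T] [Finite T]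
    {k : ℕ} {e : N ≃* (Fin k → T)} (h : EPS H N e) (hdq : GSide H N T k p) (hF : FiltC p 3 M T) : False := by
  have := h.simple
  obtain ⟨A, hC, Tt, n, X, R, F, hW, hX, hF, hc⟩ := hF
  have : Nontrivial (Fin l) := Fin.nontrivial_iff_two_le.2 hl
  have hG := GG_eq_top (T := Tt) hX
  obtain ⟨-, i, h2⟩ := own_SR_dq h hdq R (fun K hK h1 => borel_tits_of_filt hF hX hK h1) hG hX
    (KFacts.RgdLieCharP.conn_of_simple R hX (KFacts.RgdLieCharP.center_eq_bot h.nab))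
  have := hc i
  omega

/-- the same with `HasPan` and `HasFilt` -/
theorem own_S_pan_dq (hl : 2 ≤ l) {q : Fin l → ℕ} {G : Type*} [Group G] [Finite G] {H N : Subgroup G} {T : Type}
    [Group T] [Finite T] {k : ℕ} {e : N ≃* (Fin k → T)} (h : EPS H N e) (hdq : GSide H N T k p)
    (hP : HasPan p M q T) (hF : HasFilt p T) : p = 2 ∧ ∃ i, q i = 2 := by
  have := h.simple
  obtain ⟨A, hC, Tt, n, X, hW, R, hX, -, -, hq⟩ := hP
  have : Nontrivial (Fin l) := Fin.nontrivial_iff_two_le.2 hl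
  have hG := GG_eq_top (T := Tt) hX
  obtain ⟨h1, i, h2⟩ := own_SR_dq h hdq R (bt_of_hasFilt R hG hF) hG hX
    (KFacts.RgdLieCharP.conn_of_simple R hX (KFacts.RgdLieCharP.center_eq_bot h.nab))
  exact ⟨h1, i, by rw [← hq i, h2]⟩

end Fin

section model

open Cfsg.Agent.KFacts.TwF4 Cfsg.Agent.KFacts.TwF4.SylU Cfsg.Agent.ChevalleyStructure.TwF4.TwistedFix

variable {K : Type} [Field K] [Fintype K]

/-- **the parabolic system of `²F₄(q)`** with Borel–Tits -/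
theorem exists_psys_bt {m : ℕ} (hm : 1 ≤ m) (hK : Fintype.card K = 2 ^ (2 * m + 1)) :
    ∃ S : PSys ↥(Lie.twistedF4 K (2 ^ m)) 2 (Fin 2), Rk S ∧ (∀ j, (S.V {j}).relIndex (S.V ∅) ≠ 2) ∧
      ∀ Q : Subgroup ↥(Lie.twistedF4 K (2 ^ m)), IsPGroup 2 Q → Q ≠ ⊥ →
        ∃ (g : ↥(Lie.twistedF4 K (2 ^ m))) (J : Set (Fin 2)), J ≠ Set.univ ∧ Q ≤ cj g (S.V J) ∧
          Subgroup.normalizer (Q : Set ↥(Lie.twistedF4 K (2 ^ m))) ≤ cj g (S.P J) := by
  have : CharP K 2 := Cfsg.Agent.ChevalleyStructure.TwF4.Twisted.charP_two hK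
  obtain ⟨φ, hφ⟩ := exists_rln hK
  have hfin : Finite (GL Lie.chevF4.Idx K) := inferInstance
  have : Finite ↥(Lie.twistedF4 K (2 ^ m)) := inferInstance
  have h8 : 8 ≤ Fintype.card K := by
    rw [hK]
    calc 8 = 2 ^ 3 := by norm_num
      _ ≤ 2 ^ (2 * m + 1) := Nat.pow_le_pow_right (by norm_num) (by omega)
  obtain ⟨c, hc0, hc1⟩ : ∃ c : K, c ≠ 0 ∧ c ≠ 1 := by
    classical
    by_contra hcon
    push Not at hcon
    have h3 : (Finset.univ : Finset K) ⊆ {0, 1} := by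
      intro x _
      by_cases hx : x = 0
      · simp [hx]
      · simp [hcon x hx]
    have h4 := (Finset.card_le_card h3).trans (Finset.card_le_two)
    rw [Finset.card_univ] at h4
    omega
  have hF : ∃ c : Kˣ, c ≠ 1 := ⟨Units.mk0 c hc0, fun h => hc1 (by simpa using congrArg Units.val h)⟩
  let S := Cfsg.Agent.KFacts.TwF4.Inst.full hK hφ
  obtain ⟨P, hP⟩ := exists_sylow S hF rfl
  let D : OD ↥(Lie.twistedF4 K (2 ^ m)) := ofFull S (opp hK hφ)
  have hU : D.U = (P : Subgroup ↥(Lie.twistedF4 K (2 ^ m))) := hP.symm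
  have h2 : IsPGroup 2 D.U := by rw [hU]; exact P.isPGroup'
  have hs : ∀ R : Subgroup ↥(Lie.twistedF4 K (2 ^ m)), D.U ≤ R → IsPGroup 2 R → R = D.U := by
    intro R hR hR2
    rw [hU] at hR ⊢
    exact P.is_maximal' hR2 hR
  refine ⟨D.psys h2 hs, OD.rk h2 hs, fun j => ?_, fun Q hQ hQ1 => ?_⟩
  · fin_cases j
    · have k1 : ∀ t, S.o 0 t ∈ D.X (sr 0) := fun t => by
        have h3 : sr 0 = od 0 := by decide
        rw [h3]
        exact (S.mem_odd 0 _).2 ⟨t, rfl⟩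
      have k0 : ∀ {t}, t ≠ 0 → S.o 0 t ≠ 1 := fun {t} ht h => ht (S.o_eq_one h)
      exact OD.relIndex_ne_two h2 hs 0 (k1 1) (k1 c) (k0 one_ne_zero) (k0 hc0) (fun h => hc1 (S.injO 0 h).symm)
    · have k1 : ∀ t, S.e 4 0 t ∈ D.X (sr 1) := fun t => by
        have h3 : sr 1 = ev 4 := by decide
        rw [h3]
        exact (S.mem_even 4 _).2 ⟨0, t, rfl⟩
      have k0 : ∀ {t}, t ≠ 0 → S.e 4 0 t ≠ 1 := fun {t} ht h => ht (S.e_eq_one h).2
      exact OD.relIndex_ne_two h2 hs 1 (k1 1) (k1 c) (k0 one_ne_zero) (k0 hc0)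
        (fun h => hc1 (S.injE 4 _ _ _ _ h).2.symm)
  · obtain ⟨g₀, hg₀⟩ := OD.exists_le_cj h2 hs hQ
    exact OD.bt hQ1 hg₀

/-- `N ≅ ²F₄(q) ^ k` -/
theorem own_S_twf_dq {m : ℕ} (hm : 1 ≤ m) (hK : Fintype.card K = 2 ^ (2 * m + 1)) {G : Type*} [Group G] [Finite G]
    {H N : Subgroup G} {k : ℕ} [Finite ↥(Lie.twistedF4 K (2 ^ m))] {e : N ≃* (Fin k → ↥(Lie.twistedF4 K (2 ^ m)))}
    (h : EPS H N e) (hdq : GSide H N ↥(Lie.twistedF4 K (2 ^ m)) k 2) : False := by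
  have : Fact (Nat.Prime 2) := ⟨Nat.prime_two⟩
  obtain ⟨S, hS, h2⟩ := exists_psys (K := K) hm hK
  obtain ⟨-, i, hi⟩ := own_S_dq h hS (hdq _ S)
  exact h2 i hi

/-- transport of the `G`-side along an isomorphism of `T` -/
theorem _root_.Cfsg.Agent.H209.EPX.EPS.congr564 {T T' : Type} [Group T] [Group T'] (f : T ≃* T') {G : Type*} [Group G]
    {H N : Subgroup G} {k : ℕ} {e : N ≃* (Fin k → T)} (h : EPS H N e) :
    EPS H N (e.trans (MulEquiv.piCongrRight fun _ => f)) :=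
  have := h.simple
  { toMinN := h.toMinN
    ep := h.ep
    pos := h.pos
    simple := f.symm.isSimpleGroup
    nab := by
      obtain ⟨a, b, hab⟩ := h.nab
      refine ⟨f a, f b, fun h1 => hab ?_⟩
      rw [← map_mul, ← map_mul] at h1
      exact f.injective h1
    cent := h.cent
    least := h.least }

/-- the `G`-side for every coordinate group -/
def GSideU {G : Type*} [Group G] [Finite G] (H N : Subgroup G) (k p : ℕ) : Prop :=
  ∀ (T : Type) [Group T] [Finite T] (e : N ≃* (Fin k → T)), EPS H N e → GSide H N T k p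

/-- **`T ≅ ²F₄(q)`**, `q ≥ 8` -/
theorem own_S_iso_dq {T : Type} [Group T] (hT : Lie.Iso2F4 T) {G : Type*} [Group G] [Finite G]
    {H N : Subgroup G} {k : ℕ} {e : N ≃* (Fin k → T)} (h : EPS H N e) (hdq : GSideU H N k 2) : False := by
  obtain ⟨K, _, _, m, hm, hK, ⟨f⟩⟩ := hT
  have hfin : Finite (GL Lie.chevF4.Idx K) := inferInstance
  have : Finite ↥(Lie.twistedF4 K (2 ^ m)) := inferInstance
  exact own_S_twf_dq hm hK (h.congr564 f) (hdq _ _ (h.congr564 f))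

end model

end Cfsg.Agent.H564.EPF
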