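import Cfsg.Agent.H564.EPF.OwnG
import Cfsg.Agent.H470.EPO.OwnR1Fin

/-!
# S5745, own characteristic, with the `G`-side as a hypothesis (helper564)

`GSideA p G` : `DQ` for every stabiliser `EPS H N e` of `G`.

* `own_r1_dq`, `k_eq_one_dq`, `ownR1_dq` : rank one (helper470's `r1_false`, helper515's `k_eq_one`);
* `own_dq` : `Own p G` from `GSideA p G`, `OwnQ2 G`, `OwnR1 p G`.
-/

set_option autoImplicit false
set_option linter.unusedSectionVars false

namespace Cfsg.Agent.H564.EPF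

open Cfsg.Agent.H284 Cfsg.Agent.H737.EPO Cfsg.Agent.H209.EPX Cfsg.Agent.KFacts.RgdFilt Cfsg.Agent.H542.EPX
open Cfsg.Agent.H470.EPO Cfsg.Agent.H515.EPO.KTwo

/-- the `G`-side for all stabilisers of `G` -/
def GSideA (p : ℕ) (G : Type) [Group G] [Finite G] : Prop :=
  ∀ (H N : Subgroup G) (T : Type) [Group T] [Finite T] (k : ℕ) (e : N ≃* (Fin k → T)), EPS H N e → GSide H N T k p

theorem nab_of_eps {G : Type*} [Group G] {H N : Subgroup G} {T : Type} [Group T] {k : ℕ} {e : N ≃* (Fin k → T)}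
    (h : EPS H N e) : ∃ a b : G, a * b ≠ b * a := by
  obtain ⟨a, b, hab⟩ := h.nab
  refine ⟨(e.symm (fun _ => a) : N), (e.symm (fun _ => b) : N), fun h3 => hab ?_⟩
  have h4 : e.symm (fun _ => a) * e.symm (fun _ => b) = e.symm (fun _ => b) * e.symm (fun _ => a) := Subtype.ext h3
  rw [← map_mul, ← map_mul] at h4
  exact congrFun (e.symm.injective h4) ⟨0, h.pos⟩

theorem fin_of_eps {G : Type*} [Group G] [Finite G] {H N : Subgroup G} {T : Type} [Group T] {k : ℕ}
    {e : N ≃* (Fin k → T)} (h : EPS H N e) : Finite T := by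
  have : Nonempty (Fin k) := ⟨⟨0, h.pos⟩⟩
  have h1 : Finite (Fin k → T) := Finite.of_equiv N e.toEquiv
  exact Finite.of_surjective (fun f : Fin k → T => f ⟨0, h.pos⟩) fun t => ⟨fun _ => t, rfl⟩

/-- rank one, `k = 1` -/
theorem own_r1_dq {G : Type*} [Group G] [Finite G] [IsSimpleGroup G] {H N : Subgroup G} {T : Type} [Group T]
    [Finite T] {e : N ≃* (Fin 1 → T)} (h : EPS H N e) {p : ℕ} [Fact p.Prime] (hdq : GSide H N T 1 p) (D : R1 p T)
    (hD : D.Hyp) : False := by
  have := h.simple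
  refine r1_false e D h.nab h.ep h.toMinN h.cent hD
    (hdq _ D.psys e (fun _ => ∅) (VV_ne_bot e (i := 0) Set.empty_ne_univ)) fun A hA hab => ?_
  rcases hA.eq_bot_or_eq_top with h2 | h2
  · exact h2
  · exfalso
    obtain ⟨a, b, hab'⟩ := nab_of_eps h
    subst h2
    exact hab' (hab a (Subgroup.mem_top a) b (Subgroup.mem_top b))

/-- only one factor -/
theorem k_eq_one_S_dq {G : Type*} [Group G] [Finite G] {H N : Subgroup G} {T : Type} [Group T] [Finite T] {k : ℕ}
    {e : N ≃* (Fin k → T)} (h : EPS H N e) {p : ℕ} [Fact p.Prime] {I : Type*} [Nonempty I] {S : PSys T p I} (hS : Rk S)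
    (hdq : ∀ (e' : N ≃* (Fin k → T)) (J : Fin k → Set I), VV e' S J ≠ ⊥ → DQ H e' S J)
    (hne : p = 2 → (∀ j : I, (S.V {j}).relIndex (S.V ∅) = 2) → ∀ s, 1 + (S.P ∅).index ≠ 2 ^ s) : k = 1 := by
  have := h.simple
  obtain ⟨P, -, hP⟩ := exists_sylIn (p := p) (H := H) (K := ⊥) bot_le IsPGroup.of_bot
  obtain ⟨e', hPN⟩ := exists_std S e h.nrm h.le hP
  exact k_eq_one e' h.nab hS h.ep h.toMinN h.pos hP hPN (hdq e') hne

/-- rank one: only one factor -/
theorem k_eq_one_dq {G : Type*} [Group G] [Finite G] {H N : Subgroup G} {T : Type} [Group T] [Finite T] {k : ℕ}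
    {e : N ≃* (Fin k → T)} (h : EPS H N e) {p : ℕ} [Fact p.Prime] (hdq : GSide H N T k p) (D : R1 p T) : k = 1 := by
  have := h.simple
  apply k_eq_one_S_dq h D.rk (hdq _ _)
  intro _ h1 s _
  have h2 := P_index e D.rk ⟨0, h.pos⟩ ()
  rw [h1 ()] at h2
  have h3 : (D.psys).P {()} = ⊤ := by
    rw [← (D.psys).P_univ]
    congr 1
    ext x
    simp
  rw [h3, Subgroup.relIndex_top_right] at h2
  exact index_ne_three h.nab _ h2

/-- **`OwnR1 p G`** from the `G`-side -/
theorem ownR1_dq (hR : R1All) {G : Type} [Group G] [Finite G] [IsSimpleGroup G] {p : ℕ} [Fact p.Prime]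
    (hG : GSideA p G)
    (hsm : ∀ (H N : Subgroup G) (T : Type) [Group T] (e : N ≃* (Fin 1 → T)), EPS H N e → SmallR1 p T → False) :
    OwnR1 p G := by
  intro H N T _ k e h hT
  have hsimp := h.simple
  have hfin := fin_of_eps h
  obtain ⟨D⟩ := r1_data hR h.nab hT
  have hk : k = 1 := k_eq_one_dq h (hG H N T k e h) D
  subst hk
  rcases rankOne_cases hR hT with h1 | ⟨D, hD⟩
  · exact hsm H N T e h h1
  · exact own_r1_dq h (hG H N T 1 e h) D hD

/-- **Own characteristic: what is left**, from the `G`-side -/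
theorem own_reduce_dq {G : Type} [Group G] [Finite G] {p : ℕ} [Fact p.Prime] (hG : GSideA p G)
    {H N : Subgroup G} {T : Type} [Group T] {k : ℕ} {e : N ≃* (Fin k → T)} (h : EPS H N e)
    (hT : IsLieTypeChar p T) : (p = 2 ∧ OverTwo T) ∨ RankOne p T := by
  have hfin := fin_of_eps h
  rcases own_cases hT with ⟨l, M, hl, hF⟩ | h1 | h1 | ⟨hp, h1⟩
  · exact (own_S_filtC_dq hl h (hG H N T k e h) hF).elim
  · exact Or.inl h1
  · exact Or.inr h1
  · subst hp
    exact (own_S_iso_dq h1 h fun T' _ _ e' h' => hG H N T' k e' h').elim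

/-- **`Own p G`** from the `G`-side, `OwnQ2` and `OwnR1` -/
theorem own_dq {G : Type} [Group G] [Finite G] {p : ℕ} [Fact p.Prime] (hG : GSideA p G)
    (h2 : p = 2 → OwnQ2 G) (h1 : OwnR1 p G) : Own p G := by
  intro H N T _ k e h hT
  rcases own_reduce_dq hG h hT with ⟨hp, h4⟩ | h4
  · exact h2 hp H N T k e h h4
  · exact h1 H N T k e h h4

end Cfsg.Agent.H564.EPF
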